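import Mathlib
import Cfsg.Prelude.Def_CaseTheorems
import Cfsg.Prelude.Def_LieExceptional

/-!
# S3921 (simple groups whose non-cyclic subgroups are self-centralizing): piece statements

Every piece is a `Prop` here; it is proved in its own file as
`theorem main : Cfsg.Agent.Lib.Helper89.NCStmt.<Name>.{u}` (see the board call).
`NC G` is the hypothesis of S3921, written exactly as there.
-/

set_option autoImplicit false

namespace Cfsg.Agent.Lib.Helper89.NCStmt

universe u

/-- every non-cyclic subgroup contains its centralizer (the property of S3921) -/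
def NC (G : Type u) [Group G] : Prop :=
  ∀ H : Subgroup G, ¬ IsCyclic ↥H → Subgroup.centralizer (H : Set G) ≤ H

/-- every involution commutes with a second involution -/
def Inv2On (G : Type u) [Group G] : Prop :=
  ∀ u : G, orderOf u = 2 → ∃ y : G, orderOf y = 2 ∧ y ≠ u ∧ y * u = u * y

/-- the centralizer of every involution is a 2-group -/
def CITOn (G : Type u) [Group G] : Prop :=
  ∀ u : G, orderOf u = 2 → IsPGroup 2 ↥(Subgroup.centralizer ({u} : Set G))

/-- the part of the Brauer-Suzuki-Wall conclusion (S3282) that is used -/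
def BSWData (G : Type u) [Group G] (Q D : Subgroup G) : Prop :=
  2 * Nat.card G = Nat.card ↥Q * (Nat.card ↥Q + 1) * (Nat.card ↥Q - 1) ∧
  (∀ x ∈ Q, x ≠ 1 → Subgroup.centralizer ({x} : Set G) = Q) ∧
  2 * Nat.card ↥D + 1 = Nat.card ↥Q ∧ Q ⊓ D = ⊥ ∧ Subgroup.normalizer (Q : Set G) = Q ⊔ D

/-! ## forward direction: abstract group theory -/

/-- [EVENB] an element of `s`-power order (`s > r`, `r` odd) normalizing an `r`-group `Q` of order
dividing `r^2`, or nonabelian of order `r^3`, centralizes it (count fixed points mod `s`). -/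
def EvenB : Prop := ∀ (G : Type u) [Group G] [Finite G] (r s : ℕ), r.Prime → s.Prime → r < s → Odd r →
  ∀ (Q : Subgroup G) (g : G), g ∈ Subgroup.normalizer (Q : Set G) → (∃ a : ℕ, orderOf g = s ^ a) →
  (Nat.card ↥Q ∣ r ^ 2 ∨ (Nat.card ↥Q = r ^ 3 ∧ ¬ IsMulCommutative ↥Q)) →
  g ∈ Subgroup.centralizer (Q : Set G)

/-- [HASINV] a nonabelian simple `NC`-group has an involution (smallest prime `r`: S3917/S3918 bound
the Sylow `r`-subgroup, EVENB + Frobenius S0071 / S3031 give a normal `r`-complement if `r` is odd). -/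
def HasInv : Prop := EvenB.{u} → ∀ (G : Type u) [Group G] [Finite G] [IsSimpleGroup G],
  ¬ IsMulCommutative G → NC G → ∃ u : G, orderOf u = 2

/-- [INV2] in a nonabelian simple group every involution commutes with a second one (Z*, S0215). -/
def Inv2 : Prop := ∀ (G : Type u) [Group G] [Finite G] [IsSimpleGroup G], ¬ IsMulCommutative G → Inv2On G

/-- [CITA] in an `NC`-group, an involution `y` of `C(u)` inverts no nontrivial element of odd order
of `C(u)` (the dihedral group `⟨y, h⟩` is non-cyclic, is centralized by `u`, and does not contain `u`). -/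
def CitA : Prop := ∀ (G : Type u) [Group G] [Finite G], NC G → ∀ u y h : G, orderOf u = 2 → orderOf y = 2 →
  y ≠ u → y * u = u * y → h * u = u * h → h ≠ 1 → Odd (orderOf h) → y * h * y⁻¹ ≠ h⁻¹

/-- [CITB] involution centralizers of an `NC`-group with `Inv2On` are 2-groups
(S0200 Baer-Suzuki, S3224, S3116). -/
def CitB : Prop := CitA.{u} → ∀ (G : Type u) [Group G] [Finite G], NC G → Inv2On G → CITOn G

/-- [SYL] some involution centralizer is a Sylow 2-subgroup, which is dihedral of order `≥ 8`,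
quasidihedral or of order 4 (S3224). -/
def Syl : Prop := ∀ (G : Type u) [Group G] [Finite G], NC G → Inv2On G → CITOn G → (∃ u : G, orderOf u = 2) →
  ∃ (t : G) (S : Sylow 2 G), orderOf t = 2 ∧ (S : Subgroup G) = Subgroup.centralizer ({t} : Set G) ∧
    ((∃ n : ℕ, 4 ≤ n ∧ Nonempty (↥(S : Subgroup G) ≃* DihedralGroup n)) ∨
      Cfsg.IsQuasiDihedral ↥(S : Subgroup G) ∨ Nat.card ↥(S : Subgroup G) = 4)

/-- [CASE4] Sylow 2-subgroups of order 4: `G ≅ PSL(2,4)` (S1230). -/
def Case4 : Prop := ∀ (G : Type u) [Group G] [Finite G] [IsSimpleGroup G], ¬ IsMulCommutative G →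
  Inv2On G → CITOn G → ∀ S : Sylow 2 G, Nat.card ↥(S : Subgroup G) = 4 →
  ∃ (F : Type) (_ : Field F) (_ : Fintype F), Fintype.card F = 4 ∧
    Nonempty (G ≃* Matrix.ProjectiveSpecialLinearGroup (Fin 2) F)

/-- [NOSD] a quasidihedral Sylow 2-subgroup is not an involution centralizer (S1213). -/
def NoSD : Prop := ∀ (G : Type u) [Group G] [Finite G] [IsSimpleGroup G], ¬ IsMulCommutative G →
  ∀ (t : G) (S : Sylow 2 G), orderOf t = 2 → (S : Subgroup G) = Subgroup.centralizer ({t} : Set G) →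
  ¬ Cfsg.IsQuasiDihedral ↥(S : Subgroup G)

/-- [DIHDATA] a dihedral Sylow 2-subgroup `S = C(t)` of order `≥ 8` gives the hypotheses of the
Brauer-Suzuki-Wall theorem S3282 (`K` = the cyclic subgroup of index 2, `s` a reflection). -/
def DihData : Prop := ∀ (G : Type u) [Group G] [Finite G] (t : G) (S : Sylow 2 G), orderOf t = 2 →
  (S : Subgroup G) = Subgroup.centralizer ({t} : Set G) →
  ∀ n : ℕ, 4 ≤ n → Nonempty (↥(S : Subgroup G) ≃* DihedralGroup n) →
  ∃ (K : Subgroup G) (s : G), IsMulCommutative ↥K ∧ K ≤ Subgroup.centralizer ({t} : Set G) ∧ t ∈ K ∧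
    orderOf s = 2 ∧ s ∈ Subgroup.centralizer ({t} : Set G) ∧ s ∉ K ∧
    K ⊔ Subgroup.zpowers s = Subgroup.centralizer ({t} : Set G) ∧
    K ⊓ Subgroup.centralizer ({s} : Set G) = Subgroup.zpowers t ∧
    (∀ x ∈ K, s * x * s⁻¹ = x⁻¹) ∧
    (∀ g : G, g ∉ Subgroup.centralizer ({t} : Set G) → K ⊓ K.map (MulAut.conj g).toMonoidHom = ⊥) ∧
    IsCyclic ↥K ∧ K ≤ (S : Subgroup G) ∧ K.relIndex (S : Subgroup G) = 2 ∧ 8 ∣ Nat.card G

/-- [ONECLASS] a Sylow 2-subgroup with a cyclic subgroup of index 2 in a nonabelian simple group: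
all involutions are conjugate (Thompson transfer S0111). -/
def OneClass : Prop := ∀ (G : Type u) [Group G] [Finite G] [IsSimpleGroup G], ¬ IsMulCommutative G →
  ∀ (S : Sylow 2 G) (K : Subgroup G), K ≤ (S : Subgroup G) → K.relIndex (S : Subgroup G) = 2 → IsCyclic ↥K →
  ∀ x y : G, orderOf x = 2 → orderOf y = 2 → IsConj x y

/-! ## forward direction: the Zassenhaus action on `G ⧸ N(Q)` -/

/-- [ZSEMI] `Q` meets no other conjugate of `N(Q)`. -/
def ZSemi : Prop := ∀ (G : Type u) [Group G] [Finite G] (Q D : Subgroup G), BSWData G Q D →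
  ∀ g : G, g ∉ Subgroup.normalizer (Q : Set G) → ∀ x ∈ Q, g * x * g⁻¹ ∈ Subgroup.normalizer (Q : Set G) → x = 1

/-- the conclusion of ZREG: `G ⧸ N(Q)` has `|Q| + 1` points, `Q` is regular off the base point -/
def RegOn (G : Type u) [Group G] (Q : Subgroup G) : Prop :=
  Nat.card (G ⧸ Subgroup.normalizer (Q : Set G)) = Nat.card ↥Q + 1 ∧
  ∀ y z : G ⧸ Subgroup.normalizer (Q : Set G),
    y ≠ (QuotientGroup.mk (1 : G) : G ⧸ Subgroup.normalizer (Q : Set G)) →
    z ≠ (QuotientGroup.mk (1 : G) : G ⧸ Subgroup.normalizer (Q : Set G)) → ∃! u : ↥Q, (u : G) • y = z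

/-- [ZREG] `Q` is regular on the cosets of `N(Q)` other than `N(Q)`. -/
def ZReg : Prop := ZSemi.{u} → ∀ (G : Type u) [Group G] [Finite G] (Q D : Subgroup G), BSWData G Q D → RegOn G Q

/-- [ZZAS] `G` is a Zassenhaus group on `G ⧸ N(Q)`. -/
def ZZas : Prop := ∀ (G : Type u) [Group G] [Finite G] [IsSimpleGroup G], ¬ IsMulCommutative G →
  ∀ (Q D : Subgroup G), BSWData G Q D → 8 ∣ Nat.card G → RegOn G Q →
  Cfsg.IsZassenhausGroup G (G ⧸ Subgroup.normalizer (Q : Set G)) ∧
  Q ≤ MulAction.stabilizer G (QuotientGroup.mk (1 : G) : G ⧸ Subgroup.normalizer (Q : Set G)) ∧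
  (Q.subgroupOf (MulAction.stabilizer G
    (QuotientGroup.mk (1 : G) : G ⧸ Subgroup.normalizer (Q : Set G)))).Normal ∧
  IsMulCommutative ↥Q

/-- [ZFIN] a Zassenhaus group of degree `q + 1` and order `q (q + 1) (q - 1) / 2` with an abelian
regular normal subgroup of the point stabilizer is `PSL(2,K)`, `char K ≠ 2` (S0731). -/
def ZFin : Prop := ∀ (G Ω : Type u) [Group G] [Finite G] [MulAction G Ω] [Finite Ω], Cfsg.IsZassenhausGroup G Ω →
  ∀ (x : Ω) (F : Subgroup G), F ≤ MulAction.stabilizer G x → (F.subgroupOf (MulAction.stabilizer G x)).Normal →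
  IsMulCommutative ↥F → (∀ y z : Ω, y ≠ x → z ≠ x → ∃! u : ↥F, (u : G) • y = z) →
  ∀ q : ℕ, Nat.card Ω = q + 1 → 2 ≤ q → 2 * Nat.card G = q * (q + 1) * (q - 1) →
  ∃ (K : Type) (_ : Field K) (_ : Fintype K), ringChar K ≠ 2 ∧
    Nonempty (G ≃* Matrix.ProjectiveSpecialLinearGroup (Fin 2) K)

/-- [QVAL] `PSL(2,K)`, `K` of odd order `q`, with involution centralizers 2-groups: `q = 2^k ± 1`
(elements of orders `(q ± 1)/2`, S2475). -/
def QVal : Prop := ∀ (G : Type u) [Group G] [Finite G], CITOn G →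
  ∀ (K : Type) [Field K] [Fintype K], ringChar K ≠ 2 →
  Nonempty (G ≃* Matrix.ProjectiveSpecialLinearGroup (Fin 2) K) →
  ∃ k : ℕ, Fintype.card K = 2 ^ k + 1 ∨ Fintype.card K = 2 ^ k - 1

/-- [ARITH] a prime power of the form `2^k ± 1` is `9` or a prime. -/
def Arith : Prop := ∀ q k : ℕ, IsPrimePow q → (q = 2 ^ k + 1 ∨ q = 2 ^ k - 1) → q = 9 ∨ q.Prime

/-! ## converse -/

/-- [TRANSP] `NC` is invariant under isomorphism. -/
def Transp : Prop := ∀ (G : Type u) (G' : Type) [Group G] [Group G'], Nonempty (G ≃* G') → NC G' → NC G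

/-- [Q24] `PSL(2,2)` and `PSL(2,4)` are `NC`-groups (S2507 class sizes, S0252). -/
def Q24 : Prop := ∀ (F : Type) [Field F] [Fintype F], (Fintype.card F = 2 ∨ Fintype.card F = 4) →
  NC (Matrix.ProjectiveSpecialLinearGroup (Fin 2) F)

/-- [CSPLIT] centralizer in `SL(2,q)` of an element with an eigenvalue `l`, `l^2 ≠ 1` (S2428). -/
def CSplit : Prop := ∀ (F : Type) [Field F] [Fintype F], Odd (Fintype.card F) →
  ∀ c : Matrix.SpecialLinearGroup (Fin 2) F,
  (∃ (l : F) (v : Fin 2 → F), v ≠ 0 ∧ l ^ 2 ≠ 1 ∧ (c : Matrix (Fin 2) (Fin 2) F).mulVec v = l • v) →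
  IsCyclic ↥(Subgroup.centralizer ({c} : Set (Matrix.SpecialLinearGroup (Fin 2) F))) ∧
  Nat.card ↥(Subgroup.centralizer ({c} : Set (Matrix.SpecialLinearGroup (Fin 2) F))) = Fintype.card F - 1

/-- [CUNI] centralizer in `SL(2,q)` of a non-central element with an eigenvalue `± 1`. -/
def CUni : Prop := ∀ (F : Type) [Field F] [Fintype F], Odd (Fintype.card F) →
  ∀ c : Matrix.SpecialLinearGroup (Fin 2) F,
  (c : Matrix (Fin 2) (Fin 2) F) ≠ 1 → (c : Matrix (Fin 2) (Fin 2) F) ≠ -1 →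
  (∃ (l : F) (v : Fin 2 → F), v ≠ 0 ∧ l ^ 2 = 1 ∧ (c : Matrix (Fin 2) (Fin 2) F).mulVec v = l • v) →
  Nat.card ↥(Subgroup.centralizer ({c} : Set (Matrix.SpecialLinearGroup (Fin 2) F))) = 2 * Fintype.card F

/-- [CNS] centralizer in `SL(2,q)` of an element without eigenvectors (S2429). -/
def CNs : Prop := ∀ (F : Type) [Field F] [Fintype F], Odd (Fintype.card F) →
  ∀ c : Matrix.SpecialLinearGroup (Fin 2) F,
  (∀ (l : F) (v : Fin 2 → F), v ≠ 0 → (c : Matrix (Fin 2) (Fin 2) F).mulVec v ≠ l • v) →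
  IsCyclic ↥(Subgroup.centralizer ({c} : Set (Matrix.SpecialLinearGroup (Fin 2) F))) ∧
  Nat.card ↥(Subgroup.centralizer ({c} : Set (Matrix.SpecialLinearGroup (Fin 2) F))) = Fintype.card F + 1

/-- centralizers of non-central elements of `SL(2,F)` (assembled from CSPLIT, CUNI, CNS) -/
def SLCent (F : Type) [Field F] [Fintype F] : Prop :=
  ∀ c : Matrix.SpecialLinearGroup (Fin 2) F,
    (c : Matrix (Fin 2) (Fin 2) F) ≠ 1 → (c : Matrix (Fin 2) (Fin 2) F) ≠ -1 →
    (IsCyclic ↥(Subgroup.centralizer ({c} : Set (Matrix.SpecialLinearGroup (Fin 2) F))) ∧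
      (Nat.card ↥(Subgroup.centralizer ({c} : Set (Matrix.SpecialLinearGroup (Fin 2) F))) = Fintype.card F - 1 ∨
        Nat.card ↥(Subgroup.centralizer ({c} : Set (Matrix.SpecialLinearGroup (Fin 2) F))) = Fintype.card F + 1)) ∨
    Nat.card ↥(Subgroup.centralizer ({c} : Set (Matrix.SpecialLinearGroup (Fin 2) F))) = 2 * Fintype.card F

/-- centralizers of nontrivial elements of `PSL(2,F)`: a subgroup `A` of index at most 2 (equal to
the centralizer unless `x` is an involution), cyclic of order `(q ± 1)/2` or of order `q` -/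
def PSLCent (F : Type) [Field F] [Fintype F] : Prop :=
  ∀ x : Matrix.ProjectiveSpecialLinearGroup (Fin 2) F, x ≠ 1 →
    ∃ A : Subgroup (Matrix.ProjectiveSpecialLinearGroup (Fin 2) F),
      x ∈ A ∧ A ≤ Subgroup.centralizer ({x} : Set (Matrix.ProjectiveSpecialLinearGroup (Fin 2) F)) ∧
      (∀ g ∈ Subgroup.centralizer ({x} : Set (Matrix.ProjectiveSpecialLinearGroup (Fin 2) F)), g ∉ A →
        ∀ h ∈ Subgroup.centralizer ({x} : Set (Matrix.ProjectiveSpecialLinearGroup (Fin 2) F)), h ∉ A →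
          g * h ∈ A) ∧
      (orderOf x ≠ 2 → A = Subgroup.centralizer ({x} : Set (Matrix.ProjectiveSpecialLinearGroup (Fin 2) F))) ∧
      ((IsCyclic ↥A ∧ (2 * Nat.card ↥A = Fintype.card F - 1 ∨ 2 * Nat.card ↥A = Fintype.card F + 1)) ∨
        Nat.card ↥A = Fintype.card F)

/-- [CENTP] from `SL(2,q)` to `PSL(2,q)`, `q` odd (`A` = image of `C_SL(c)`; `g c g⁻¹ = -c` forces
trace 0, so `c^2 = -1`). -/
def CentP : Prop := ∀ (F : Type) [Field F] [Fintype F], Odd (Fintype.card F) → SLCent F → PSLCent F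

/-- [NCODD] `PSL(2,q)` is an `NC`-group for `q = 9` or `q` an odd prime `2^k ± 1`. -/
def NCOdd : Prop := ∀ (F : Type) [Field F] [Fintype F], Odd (Fintype.card F) →
  (Fintype.card F = 9 ∨
    ((Fintype.card F).Prime ∧ ∃ k : ℕ, Fintype.card F = 2 ^ k + 1 ∨ Fintype.card F = 2 ^ k - 1)) →
  PSLCent F → NC (Matrix.ProjectiveSpecialLinearGroup (Fin 2) F)

end Cfsg.Agent.Lib.Helper89.NCStmt
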