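import Mathlib
import Cfsg.Agent.Lib.Helper52.SpStmt

set_option autoImplicit false

/-! Piece AUT of S5171: if `N_G(S)` is generated by elements of the subgroups `K R`, then
`Aut_G(S)` is the join of the `Aut_{K R}(S)`. -/

namespace Cfsg.Agent.Lib.Helper89.SpAUT

universe u

variable {G : Type u} [Group G]

/-- conjugation by a normalizing element, as an automorphism of `S` -/
def conjAut (S : Subgroup G) (n : G) (hn : n ∈ Subgroup.normalizer (S : Set G)) : MulAut S where
  toFun x := ⟨n * x * n⁻¹, (Subgroup.mem_normalizer_iff.1 hn x).1 x.2⟩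
  invFun x := ⟨n⁻¹ * x * n, by
    have h := (Subgroup.mem_normalizer_iff.1 hn (n⁻¹ * x * n)).2
    apply h
    have e : n * (n⁻¹ * (x : G) * n) * n⁻¹ = (x : G) := by group
    rw [e]
    exact x.2⟩
  left_inv x := by
    apply Subtype.ext
    show n⁻¹ * (n * (x : G) * n⁻¹) * n = (x : G)
    group
  right_inv x := by
    apply Subtype.ext
    show n * (n⁻¹ * (x : G) * n) * n⁻¹ = (x : G)
    group
  map_mul' x y := by
    apply Subtype.ext
    show n * ((x : G) * (y : G)) * n⁻¹ = n * (x : G) * n⁻¹ * (n * (y : G) * n⁻¹)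
    group

theorem conjAut_coe (S : Subgroup G) (n : G) (hn : n ∈ Subgroup.normalizer (S : Set G))
    (x : S) : ((conjAut S n hn x : S) : G) = n * (x : G) * n⁻¹ := rfl

theorem mem_normalizer_of_aut (S : Subgroup G) (α : MulAut S) (g : G)
    (hα : ∀ x : S, ((α x : S) : G) = g * (x : G) * g⁻¹) :
    g ∈ Subgroup.normalizer (S : Set G) := by
  rw [Subgroup.mem_normalizer_iff]
  intro h
  constructor
  · intro hh
    have := hα ⟨h, hh⟩
    rw [← this]
    exact (α ⟨h, hh⟩).2
  · intro hh
    obtain ⟨x, hx⟩ := α.surjective ⟨g * h * g⁻¹, hh⟩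
    have h1 := hα x
    rw [hx] at h1
    have h2 : h = (x : G) := by
      have h3 : g * h * g⁻¹ = g * (x : G) * g⁻¹ := h1
      exact mul_left_cancel (mul_right_cancel h3)
    rw [h2]
    exact x.2

theorem main : Cfsg.Agent.Lib.Helper52.SpStmt.AutGen.{u} := by
  intro G _ S P K hgen
  apply le_antisymm
  · -- `Aut_G(S) ≤ ⨆ Aut_{K R}(S)`
    set J : Subgroup (MulAut S) := ⨆ (R : Subgroup G) (_ : P R), Cfsg.autInducedBy (K R) S with hJ
    unfold Cfsg.autInducedBy
    rw [Subgroup.closure_le]
    rintro α ⟨g, -, hα⟩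
    have hgN : g ∈ Subgroup.normalizer (S : Set G) := mem_normalizer_of_aut S α g hα
    have hgc := hgen hgN
    have key : ∀ n (hn : n ∈ Subgroup.closure
        {h : G | h ∈ Subgroup.normalizer (S : Set G) ∧ ∃ R : Subgroup G, P R ∧ h ∈ K R}),
        n ∈ Subgroup.normalizer (S : Set G) ∧
          ∀ β : MulAut S, (∀ x : S, ((β x : S) : G) = n * (x : G) * n⁻¹) → β ∈ J := by
      intro n hn
      induction hn using Subgroup.closure_induction with
      | mem n hn =>
        obtain ⟨hnN, R, hPR, hnK⟩ := hn
        refine ⟨hnN, fun β hβ => ?_⟩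
        have h1 : β ∈ Cfsg.autInducedBy (K R) S :=
          Subgroup.subset_closure ⟨n, hnK, hβ⟩
        exact (le_iSup₂ (f := fun (R : Subgroup G) (_ : P R) => Cfsg.autInducedBy (K R) S)
          R hPR) h1
      | one =>
        refine ⟨Subgroup.one_mem _, fun β hβ => ?_⟩
        have : β = 1 := by
          apply MulEquiv.ext
          intro x
          apply Subtype.ext
          rw [hβ x]
          simp
        rw [this]
        exact Subgroup.one_mem _
      | mul a b _ _ iha ihb =>
        obtain ⟨haN, ha⟩ := iha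
        obtain ⟨hbN, hb⟩ := ihb
        refine ⟨Subgroup.mul_mem _ haN hbN, fun β hβ => ?_⟩
        have h1 := ha (conjAut S a haN) (fun x => rfl)
        have h2 := hb (conjAut S b hbN) (fun x => rfl)
        have : β = conjAut S a haN * conjAut S b hbN := by
          apply MulEquiv.ext
          intro x
          apply Subtype.ext
          rw [hβ x]
          show a * b * (x : G) * (a * b)⁻¹ = a * (b * (x : G) * b⁻¹) * a⁻¹
          group
        rw [this]
        exact Subgroup.mul_mem _ h1 h2
      | inv a _ iha =>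
        obtain ⟨haN, ha⟩ := iha
        refine ⟨Subgroup.inv_mem _ haN, fun β hβ => ?_⟩
        have h1 := ha (conjAut S a haN) (fun x => rfl)
        have : β = (conjAut S a haN)⁻¹ := by
          rw [eq_inv_iff_mul_eq_one]
          apply MulEquiv.ext
          intro x
          apply Subtype.ext
          show ((β (conjAut S a haN x) : S) : G) = (x : G)
          rw [hβ]
          show a⁻¹ * (a * (x : G) * a⁻¹) * a⁻¹⁻¹ = (x : G)
          group
        rw [this]
        exact Subgroup.inv_mem _ h1
    exact (key g hgc).2 α hα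
  · -- each `Aut_{K R}(S) ≤ Aut_G(S)`
    apply iSup₂_le
    intro R _
    unfold Cfsg.autInducedBy
    apply Subgroup.closure_mono
    rintro α ⟨g, -, hα⟩
    exact ⟨g, Subgroup.mem_top g, hα⟩

end Cfsg.Agent.Lib.Helper89.SpAUT
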