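import Mathlib
import Cfsg.Agent.Lib.Helper52.SpStmt

set_option autoImplicit false

/-! Piece SC of S5171: unpacking strong closure in a group fusion system. -/

namespace Cfsg.Agent.Lib.Helper89.SpSC

universe u

theorem main : Cfsg.Agent.Lib.Helper52.SpStmt.SCUnpack.{u} := by
  intro G _ S T hT
  obtain ⟨hTS, hcl⟩ := hT
  refine ⟨hTS, ?_⟩
  intro t ht g hg
  have hR : Subgroup.zpowers t ≤ T := by
    rw [Subgroup.zpowers_le]
    exact ht
  have hφ : Cfsg.conjHom (Subgroup.zpowers t) g ∈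
      (Cfsg.groupFusionSystem S).Hom (Subgroup.zpowers t) := by
    refine ⟨hR.trans hTS, ?_, g, fun x => rfl⟩
    intro x
    obtain ⟨k, hk⟩ := Subgroup.mem_zpowers_iff.1 x.2
    show g * (x : G) * g⁻¹ ∈ S
    rw [← hk]
    have e : g * t ^ k * g⁻¹ = (g * t * g⁻¹) ^ k := by
      rw [conj_zpow]
    rw [e]
    exact S.zpow_mem hg k
  exact hcl (Subgroup.zpowers t) hR _ hφ ⟨t, Subgroup.mem_zpowers t⟩

end Cfsg.Agent.Lib.Helper89.SpSC
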