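import Mathlib
import Cfsg.Agent.Lib.Helper40.GFStmt

set_option autoImplicit false

namespace Cfsg.Agent.Lib.Helper89.GFPSI

open Cfsg.Agent.Lib.Helper40.GFStmt

universe u

theorem main : Psi.{u} := by
  intro L _ k v hk
  have h0 : 0 < k := by omega
  have h1 : 1 < k := by omega
  obtain ⟨i0, hi0⟩ : ∃ i0 : Fin k, i0 = ⟨0, h0⟩ := ⟨_, rfl⟩
  obtain ⟨i1, hi1⟩ : ∃ i1 : Fin k, i1 = ⟨1, h1⟩ := ⟨_, rfl⟩
  have hne : i0 ≠ i1 := by
    rw [hi0, hi1]
    intro h
    have := congrArg Fin.val h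
    simp at this
  by_cases hv : v i0 = 0 ∧ v i1 = 0
  · refine ⟨LinearMap.proj i0, ?_, ?_⟩
    · intro h
      have h2 := congrArg (fun f : V k L →ₗ[L] L => f (Pi.single i0 1)) h
      simp at h2
    · simpa using hv.1
  · refine ⟨v i1 • LinearMap.proj i0 - v i0 • LinearMap.proj i1, ?_, ?_⟩
    · intro h
      have h2 := congrArg (fun f : V k L →ₗ[L] L => f (Pi.single i0 1)) h
      have h3 := congrArg (fun f : V k L →ₗ[L] L => f (Pi.single i1 1)) h
      simp [Pi.single_apply, hne, hne.symm] at h2 h3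
      exact hv ⟨h3, h2⟩
    · simp
      ring

end Cfsg.Agent.Lib.Helper89.GFPSI
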