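import Mathlib
import Cfsg.Agent.Lib.Helper40.GFStmt

set_option autoImplicit false

namespace Cfsg.Agent.Lib.Helper89.GFSEP

open Cfsg.Agent.Lib.Helper40.GFStmt

universe u

theorem main : Sep.{u} := by
  intro L _ k w b hb
  have hnot : b ∉ Submodule.span L ({w} : Set (V k L)) := by
    intro hmem
    rw [Submodule.mem_span_singleton] at hmem
    obtain ⟨a, ha⟩ := hmem
    exact hb a ha.symm
  obtain ⟨φ, hφb, hφ⟩ := Submodule.exists_dual_map_eq_bot_of_notMem hnot inferInstance
  refine ⟨φ, ?_, hφb⟩
  have : φ w ∈ (Submodule.span L ({w} : Set (V k L))).map φ :=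
    Submodule.mem_map_of_mem (Submodule.mem_span_singleton_self w)
  rw [hφ] at this
  exact (Submodule.mem_bot L).mp this

end Cfsg.Agent.Lib.Helper89.GFSEP
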