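import Mathlib
import Cfsg.Agent.Lib.Helper89.NCStmt

/-!
# S3921 / TRANSP: the property `NC` is invariant under isomorphism
-/

set_option autoImplicit false

namespace Cfsg.Agent.Lib.Helper89.NCTRANSP

open Cfsg.Agent.Lib.Helper89

universe u

theorem main : NCStmt.Transp.{u} := by
  intro G G' _ _ he hNC H hH c hc
  obtain ⟨e⟩ := he
  have hinj : Function.Injective e.toMonoidHom := e.injective
  have h1 : ¬ IsCyclic ↥(H.map e.toMonoidHom) := by
    intro hcyc
    apply hH
    exact isCyclic_of_surjective (H.equivMapOfInjective e.toMonoidHom hinj).symm.toMonoidHom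
      (H.equivMapOfInjective e.toMonoidHom hinj).symm.surjective
  have h2 : e c ∈ Subgroup.centralizer ((H.map e.toMonoidHom : Subgroup G') : Set G') := by
    rw [Subgroup.mem_centralizer_iff]
    rintro _ ⟨h, hh, rfl⟩
    have := (Subgroup.mem_centralizer_iff.mp hc) h hh
    change e h * e c = e c * e h
    rw [← map_mul, ← map_mul, this]
  obtain ⟨h, hh, hhc⟩ := hNC _ h1 h2
  have : h = c := e.injective hhc
  exact this ▸ hh

end Cfsg.Agent.Lib.Helper89.NCTRANSP
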