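import Mathlib
import Cfsg.Agent.Lib.Helper87.NRStmt

set_option autoImplicit false

/-! Piece CEN of S5142: for `E`, `D` weakly normal in `F` over the same `T`, an `E`-centric
subgroup is `D`-centric. -/

namespace Cfsg.Agent.Lib.Helper89.NRCEN

open Cfsg Cfsg.FusionSystem

universe u

theorem main : Cfsg.Agent.Lib.Helper87.NRStmt.CentricTransfer.{u} := by
  intro Ω _ S _ p _ hS F hF T E D hE hD P hP
  obtain ⟨hPT, hcen⟩ := hP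
  refine ⟨hPT, ?_⟩
  rintro Q ⟨ψ, hψ, rfl⟩
  have hψF : ψ ∈ F.Hom P := hD.2.2.1 P hψ
  obtain ⟨α, hα, φ₀, hφ₀, hfac⟩ := hE.2.2.2.2.2 P hPT ψ hψF
  have hφ₀T : ∀ x : P, φ₀ x ∈ T := (E.le_of_mem hφ₀).2
  have hc0 := hcen φ₀.range ⟨φ₀, hφ₀, rfl⟩
  intro c hc
  obtain ⟨hcT, hcc⟩ := hc
  have hcT : c ∈ T := hcT
  have hcc : c ∈ Subgroup.centralizer (ψ.range : Set Ω) := hcc
  have hαc : α (α.symm ⟨c, hcT⟩) = ⟨c, hcT⟩ := α.apply_symm_apply _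
  have hc₀mem : ((α.symm ⟨c, hcT⟩ : T) : Ω) ∈ centralizerIn T φ₀.range := by
    refine ⟨(α.symm ⟨c, hcT⟩ : T).2, ?_⟩
    show ((α.symm ⟨c, hcT⟩ : T) : Ω) ∈ Subgroup.centralizer (φ₀.range : Set Ω)
    rw [Subgroup.mem_centralizer_iff]
    rintro _ ⟨x, rfl⟩
    have h1 : ψ x * c = c * ψ x := (Subgroup.mem_centralizer_iff.1 hcc) (ψ x) ⟨x, rfl⟩
    rw [hfac x (hφ₀T x)] at h1
    have h2 : α (⟨φ₀ x, hφ₀T x⟩ * α.symm ⟨c, hcT⟩) = α (α.symm ⟨c, hcT⟩ * ⟨φ₀ x, hφ₀T x⟩) := by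
      rw [map_mul, map_mul, hαc]
      exact Subtype.ext h1
    have h3 := α.injective h2
    exact congrArg Subtype.val h3
  obtain ⟨x, hx⟩ := hc0 hc₀mem
  refine ⟨x, ?_⟩
  rw [hfac x (hφ₀T x)]
  have e : (⟨φ₀ x, hφ₀T x⟩ : T) = α.symm ⟨c, hcT⟩ := Subtype.ext hx
  rw [e, hαc]

end Cfsg.Agent.Lib.Helper89.NRCEN
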