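import Mathlib
import Cfsg.Agent.Lib.Helper17.CentFix
import Cfsg.Agent.Lib.Helper17.FixedPoints

set_option autoImplicit false

namespace Cfsg.Agent.Lib.Helper89.O3780

open Subgroup MulAction
open Cfsg.Agent.Lib.Helper17.Sylow Cfsg.Agent.Lib.Helper17.Sylow2
open Cfsg.Agent.Lib.Helper17.CentFix Cfsg.Agent.Lib.Helper17.Commuting
open Nat

theorem key7 : ∀ n ∈ Nat.divisors 540, n % 7 = 1 → n ≠ 1 → n = 15 ∨ n = 36 ∨ n = 540 := by
  decide +kernel

theorem key5 : ∀ n ∈ Nat.divisors 108, n % 5 = 1 → n ≠ 1 → n = 6 ∨ n = 36 := by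
  decide +kernel

theorem keyr6 : ∀ r ∈ Nat.divisors 6, r = 1 ∨ r = 2 ∨ r = 3 ∨ r = 6 := by
  decide

theorem keyr4 : ∀ r ∈ Nat.divisors 4, r = 1 ∨ r = 2 ∨ r = 4 := by
  decide

/-- No finite simple group has order 3780 = 2^2 * 3^3 * 5 * 7. -/
theorem no_simple {G : Type*} [Group G] [Finite G] [IsSimpleGroup G] : Nat.card G ≠ 3780 := by
  intro h
  have hG : ¬ IsMulCommutative G := not_comm_of_not_prime (by rw [h]; norm_num)
  have : Fact (Nat.Prime 7) := ⟨by norm_num⟩
  have : Fact (Nat.Prime 5) := ⟨by norm_num⟩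
  have : Fact (Nat.Prime 3) := ⟨by norm_num⟩
  have h7 : 7 ∣ Nat.card G := by rw [h]; norm_num
  have h5 : 5 ∣ Nat.card G := by rw [h]; norm_num
  have hd : Nat.card (Sylow 7 G) ∣ 540 :=
    card_sylow_dvd (k := 1) (h.trans (by norm_num)) (by norm_num)
  have hm := card_sylow_mod (G := G) 7
  have hne := card_sylow_ne_one hG h7
  obtain ⟨P⟩ : Nonempty (Sylow 7 G) := inferInstance
  have hP : Nat.card (P : Subgroup G) = 7 := by
    simpa using card_sylow_subgroup (k := 1) (m := 540) (h.trans (by norm_num)) (by norm_num) P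
  have hNn := card_normalizer_mul_card_sylow P
  rw [h] at hNn
  have hidx : (normalizer ((P : Subgroup G) : Set G)).index = Nat.card (Sylow 7 G) :=
    (P.card_eq_index_normalizer).symm
  obtain ⟨r, hr1, hr6, hCr, hC7⟩ := sylow_prime_centralizer hG P hP
  have hr := keyr6 r (Nat.mem_divisors.mpr ⟨hr6, by norm_num⟩)
  rcases key7 _ (Nat.mem_divisors.mpr ⟨hd, by norm_num⟩) hm hne with hn | hn | hn
  · -- n = 15, |N| = 252, 3 ∣ |C|
    rw [hn] at hNn
    have hC3 : 3 ∣ Nat.card (centralizer ((P : Subgroup G) : Set G)) := by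
      rcases hr with rfl | rfl | rfl | rfl <;> omega
    obtain ⟨u, huC, hu⟩ :=
      exists_mem_orderOf_eq_prime (centralizer ((P : Subgroup G) : Set G)) 3 hC3
    have h1 := card_fixedBy_mod_of_mem_centralizer P hP u huC
    have hu3 : u ^ (3 ^ 1) = 1 := by rw [pow_one, ← hu]; exact pow_orderOf_eq_one u
    have h2 := card_modEq_card_fixedBy
      (X := G ⧸ normalizer ((P : Subgroup G) : Set G)) u hu3
    have hu1 : u ≠ 1 := by
      rintro rfl
      rw [orderOf_one] at hu
      omega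
    have h3 := card_fixedBy_lt_index _ (normalizer_sylow_ne_top hG h7 P) u hu1
    have hX : Nat.card (G ⧸ normalizer ((P : Subgroup G) : Set G)) = 15 := hidx.trans hn
    rw [hidx, hn] at h3
    rw [hX, Nat.ModEq] at h2
    omega
  · -- n = 36, |N| = 105, |C| = 35
    rw [hn] at hNn
    have hC5 : 5 ∣ Nat.card (centralizer ((P : Subgroup G) : Set G)) := by
      rcases hr with rfl | rfl | rfl | rfl <;> omega
    obtain ⟨u, huC, hu⟩ :=
      exists_mem_orderOf_eq_prime (centralizer ((P : Subgroup G) : Set G)) 5 hC5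
    obtain ⟨Q0⟩ : Nonempty (Sylow 5 G) := inferInstance
    have hQ0 : Nat.card (Q0 : Subgroup G) = 5 := by
      simpa using card_sylow_subgroup (k := 1) (m := 756) (h.trans (by norm_num)) (by norm_num) Q0
    obtain ⟨Q, hQ⟩ :=
      Cfsg.Agent.Lib.Helper17.FixedPoints.exists_sylow_eq_zpowers Q0 hQ0 u hu
    have hQc : Nat.card (Q : Subgroup G) = 5 := by rw [hQ, Nat.card_zpowers, hu]
    have hPle : (P : Subgroup G) ≤ centralizer ((Q : Subgroup G) : Set G) := by
      intro x hx
      rw [mem_centralizer_iff]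
      intro y hy
      rw [SetLike.mem_coe, hQ] at hy
      obtain ⟨k, rfl⟩ := Subgroup.mem_zpowers_iff.mp hy
      have hc : Commute u x := ((mem_centralizer_iff.mp huC) x hx).symm
      exact (hc.zpow_left k).eq
    have h7C : 7 ∣ Nat.card (centralizer ((Q : Subgroup G) : Set G)) := by
      have := Subgroup.card_dvd_of_le hPle
      rwa [hP] at this
    obtain ⟨r5, hr51, hr54, hCr5, hC55⟩ := sylow_prime_centralizer hG Q hQc
    have hNn5 := card_normalizer_mul_card_sylow Q
    rw [h] at hNn5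
    have hm5 := card_sylow_mod (G := G) 5
    have hne5 := card_sylow_ne_one hG h5
    have hf5 := two_mul_card_dvd_factorial_card_sylow hG h5
    rw [h] at hf5
    have h35 : 35 ∣ Nat.card (centralizer ((Q : Subgroup G) : Set G)) :=
      Nat.Coprime.mul_dvd_of_dvd_of_dvd (by norm_num : Nat.Coprime 5 7) hC55 h7C
    obtain ⟨c', hc'⟩ := h35
    have hd5 : Nat.card (Sylow 5 G) ∣ 108 := by
      refine ⟨c' * r5, ?_⟩
      rw [← hCr5, hc'] at hNn5
      have e : 35 * (Nat.card (Sylow 5 G) * (c' * r5)) = 35 * 108 := by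
        have e1 : 35 * (Nat.card (Sylow 5 G) * (c' * r5))
            = 35 * c' * r5 * Nat.card (Sylow 5 G) := by ring
        rw [e1, hNn5]
      exact (Nat.eq_of_mul_eq_mul_left (by norm_num : 0 < 35) e).symm
    have hr5 := keyr4 r5 (Nat.mem_divisors.mpr ⟨hr54, by norm_num⟩)
    rcases key5 _ (Nat.mem_divisors.mpr ⟨hd5, by norm_num⟩) hm5 hne5 with hn5 | hn5
    · rw [hn5] at hf5
      exact absurd hf5 (by decide)
    · rw [hn5] at hNn5
      rcases hr5 with rfl | rfl | rfl <;> omega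
  · -- n = 540, |N| = 7
    rw [hn] at hNn
    rcases hr with rfl | rfl | rfl | rfl <;> omega

end Cfsg.Agent.Lib.Helper89.O3780
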