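import Mathlib
import Cfsg.Agent.Lib.Helper17.CentFix
import Cfsg.Agent.Lib.Helper17.FixedPoints
import Cfsg.Agent.Lib.Helper17.FixCount
import Cfsg.Agent.S0992

set_option autoImplicit false

namespace Cfsg.Agent.Lib.Helper89.O5460

open Subgroup MulAction
open Cfsg.Agent.Lib.Helper17.Sylow Cfsg.Agent.Lib.Helper17.Sylow2
open Cfsg.Agent.Lib.Helper17.CentFix Cfsg.Agent.Lib.Helper17.Commuting
open Cfsg.Agent.Lib.Helper17.FixedPoints

theorem key13 : ∀ n ∈ Nat.divisors 420, n % 13 = 1 → n ≠ 1 → n = 14 ∨ n = 105 := by
  decide +kernel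

theorem keyr12 : ∀ r ∈ Nat.divisors 12, r = 1 ∨ r = 2 ∨ r = 3 ∨ r = 4 ∨ r = 6 ∨ r = 12 := by
  decide

/-- An element of square one normalizing a Sylow subgroup of prime order centralizes it or
inverts each of its elements. -/
theorem invol_dichotomy {G : Type*} [Group G] [Finite G] {p : ℕ} [Fact p.Prime] (P : Sylow p G)
    (hP : Nat.card (P : Subgroup G) = p) (g : G) (hg : g ∈ (P : Subgroup G))
    (x : G) (hx : x ∈ normalizer ((P : Subgroup G) : Set G)) (hx2 : x * x = 1) :
    x ∈ centralizer ((P : Subgroup G) : Set G) ∨ x * g * x⁻¹ = g⁻¹ := by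
  have hxg : x * g * x⁻¹ ∈ (P : Subgroup G) := (mem_normalizer_iff.mp hx g).mp hg
  have hPC := le_centralizer_of_card_prime (P : Subgroup G) hP
  have hcomm : g * (x * g * x⁻¹) = (x * g * x⁻¹) * g :=
    ((mem_centralizer_iff.mp (hPC hg)) (x * g * x⁻¹) hxg).symm
  by_cases h1 : g * (x * g * x⁻¹) = 1
  · right
    exact eq_inv_of_mul_eq_one_right h1
  · left
    have hh : g * (x * g * x⁻¹) ∈ (P : Subgroup G) := mul_mem hg hxg
    obtain ⟨-, hz⟩ := zpowers_eq_of_mem P hP _ hh h1
    have hxinv : x⁻¹ = x := inv_eq_of_mul_eq_one_left hx2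
    have hc : Commute x (g * (x * g * x⁻¹)) := by
      show x * (g * (x * g * x⁻¹)) = g * (x * g * x⁻¹) * x
      have e1 : x * (g * (x * g * x⁻¹)) = x * ((x * g * x⁻¹) * g) := by rw [hcomm]
      rw [e1, hxinv]
      have e2 : x * (x * g * x * g) = (x * x) * g * x * g := by group
      have e3 : g * (x * g * x) * x = g * x * g * (x * x) := by group
      rw [e2, e3, hx2, one_mul, mul_one]
    rw [mem_centralizer_iff]
    intro y hy
    rw [SetLike.mem_coe, ← hz] at hy
    obtain ⟨k, rfl⟩ := Subgroup.mem_zpowers_iff.mp hy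
    exact ((hc.zpow_right k).eq).symm

/-- A subgroup with more than two elements has an element different from two given ones. -/
theorem exists_ne_pair {G : Type*} [Group G] [Finite G] (K : Subgroup G) (hK : 2 < Nat.card K)
    (a b : G) : ∃ x ∈ K, x ≠ a ∧ x ≠ b := by
  by_contra hcon
  have hcon' : ∀ x ∈ K, x ≠ a → x = b := by
    intro x hx hxa
    by_contra hxb
    exact hcon ⟨x, hx, hxa, hxb⟩
  have hsub : (K : Set G) ⊆ {a, b} := by
    intro x hx
    by_cases hxa : x = a
    · exact Or.inl hxa
    · exact Or.inr (hcon' x hx hxa)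
  have h1 := Set.ncard_le_ncard hsub (Set.toFinite _)
  have h2 : ({a, b} : Set G).ncard ≤ 2 := by
    have e1 := Set.ncard_insert_le a ({b} : Set G)
    rw [Set.ncard_singleton] at e1
    exact e1
  have h3 : (K : Set G).ncard = Nat.card K := by
    rw [← Nat.card_coe_set_eq]; rfl
  omega

/-- No finite simple group has order 5460 = 2^2 * 3 * 5 * 7 * 13. -/
theorem no_simple {G : Type*} [Group G] [Finite G] [IsSimpleGroup G] : Nat.card G ≠ 5460 := by
  intro h
  have hG : ¬ IsMulCommutative G := not_comm_of_not_prime (by rw [h]; norm_num)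
  have : Fact (Nat.Prime 13) := ⟨by norm_num⟩
  have : Fact (Nat.Prime 5) := ⟨by norm_num⟩
  have : Fact (Nat.Prime 3) := ⟨by norm_num⟩
  have : Fact (Nat.Prime 2) := ⟨by norm_num⟩
  have h13 : 13 ∣ Nat.card G := by rw [h]; norm_num
  have hd : Nat.card (Sylow 13 G) ∣ 420 :=
    card_sylow_dvd (k := 1) (h.trans (by norm_num)) (by norm_num)
  have hm := card_sylow_mod (G := G) 13
  have hne := card_sylow_ne_one hG h13
  obtain ⟨P⟩ : Nonempty (Sylow 13 G) := inferInstance
  have hP : Nat.card (P : Subgroup G) = 13 := by
    simpa using card_sylow_subgroup (k := 1) (m := 420) (h.trans (by norm_num)) (by norm_num) P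
  have hNn := card_normalizer_mul_card_sylow P
  rw [h] at hNn
  have hidx : (normalizer ((P : Subgroup G) : Set G)).index = Nat.card (Sylow 13 G) :=
    (P.card_eq_index_normalizer).symm
  obtain ⟨r, hr1, hr12, hCr, hC13⟩ := sylow_prime_centralizer hG P hP
  have hr := keyr12 r (Nat.mem_divisors.mpr ⟨hr12, by norm_num⟩)
  have hCN : centralizer ((P : Subgroup G) : Set G) ≤ normalizer ((P : Subgroup G) : Set G) :=
    Subgroup.centralizer_le_normalizer _
  rcases key13 _ (Nat.mem_divisors.mpr ⟨hd, by norm_num⟩) hm hne with hn | hn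
  · -- n = 14, |N| = 390, 5 ∣ |C|
    rw [hn] at hNn
    have hC5 : 5 ∣ Nat.card (centralizer ((P : Subgroup G) : Set G)) := by
      rcases hr with rfl | rfl | rfl | rfl | rfl | rfl <;> omega
    obtain ⟨u, huC, hu⟩ :=
      exists_mem_orderOf_eq_prime (centralizer ((P : Subgroup G) : Set G)) 5 hC5
    have h1 := card_fixedBy_mod_of_mem_centralizer P hP u huC
    have hu5 : u ^ (5 ^ 1) = 1 := by rw [pow_one, ← hu]; exact pow_orderOf_eq_one u
    have h2 := card_modEq_card_fixedBy
      (X := G ⧸ normalizer ((P : Subgroup G) : Set G)) u hu5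
    have hu1 : u ≠ 1 := by
      rintro rfl
      rw [orderOf_one] at hu
      omega
    have h3 := card_fixedBy_lt_index _ (normalizer_sylow_ne_top hG h13 P) u hu1
    have hX : Nat.card (G ⧸ normalizer ((P : Subgroup G) : Set G)) = 14 := hidx.trans hn
    rw [hidx, hn] at h3
    rw [hX, Nat.ModEq] at h2
    omega
  · -- n = 105, |N| = 52
    rw [hn] at hNn
    have hN52 : Nat.card (normalizer ((P : Subgroup G) : Set G)) = 52 := by omega
    have hCcases : Nat.card (centralizer ((P : Subgroup G) : Set G)) = 26 ∨
        Nat.card (centralizer ((P : Subgroup G) : Set G)) = 13 := by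
      rcases hr with rfl | rfl | rfl | rfl | rfl | rfl <;> omega
    have h2G : Even (Nat.card G) := by rw [h]; decide
    have h8G : ¬ 8 ∣ Nat.card G := by rw [h]; decide
    have hcard2 : ∀ T : Sylow 2 G, Nat.card (T : Subgroup G) = 4 := fun T => by
      simpa using card_sylow_subgroup (k := 2) (m := 1365) (h.trans (by norm_num))
        (by norm_num) T
    have hsq : ∀ T : Sylow 2 G, ∀ x ∈ (T : Subgroup G), x * x = 1 := by
      intro T x hx
      obtain ⟨hKF, -⟩ := Cfsg.Agent.S0992.result hG h2G h8G T
      have e := Monoid.pow_exponent_eq_one (⟨x, hx⟩ : (T : Subgroup G))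
      rw [hKF.exponent_two, pow_two] at e
      exact congrArg Subtype.val e
    rcases hCcases with hC | hC
    · -- |C| = 26
      obtain ⟨t, htC, ht⟩ :=
        exists_mem_orderOf_eq_prime (centralizer ((P : Subgroup G) : Set G)) 2
          (by rw [hC]; norm_num)
      obtain ⟨j, hf13, hfj, hflt⟩ := involution_fix_data hG P hP t ht htC
      rw [hidx, hn] at hfj hflt
      have htp : IsPGroup 2 (zpowers t) :=
        IsPGroup.of_card (n := 1) (by rw [Nat.card_zpowers, ht, pow_one])
      obtain ⟨T, hT⟩ := htp.exists_le_sylow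
      have htT : t ∈ (T : Subgroup G) := hT (mem_zpowers t)
      obtain ⟨hKF, hrel⟩ := Cfsg.Agent.S0992.result hG h2G h8G T
      have hTle : (T : Subgroup G) ≤ centralizer ({t} : Set G) := by
        intro x hx
        rw [mem_centralizer_iff]
        intro y hy
        rw [Set.mem_singleton_iff] at hy
        subst hy
        have e1 := hsq T (x * y) (mul_mem hx htT)
        have e2 := hsq T x hx
        have e3 := hsq T y htT
        calc y * x = (x * x) * (y * x) * (y * y) := by rw [e2, e3, one_mul, mul_one]
          _ = x * ((x * y) * (x * y)) * y := by group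
          _ = x * y := by rw [e1, mul_one]
      have hPle : (P : Subgroup G) ≤ centralizer ({t} : Set G) := by
        intro x hx
        rw [mem_centralizer_iff]
        intro y hy
        rw [Set.mem_singleton_iff] at hy
        subst hy
        exact ((mem_centralizer_iff.mp htC) x hx).symm
      have h4c : 4 ∣ Nat.card (centralizer ({t} : Set G)) := by
        have := Subgroup.card_dvd_of_le hTle
        rwa [hcard2 T] at this
      have h13c : 13 ∣ Nat.card (centralizer ({t} : Set G)) := by
        have := Subgroup.card_dvd_of_le hPle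
        rwa [hP] at this
      have h52c : 52 ∣ Nat.card (centralizer ({t} : Set G)) :=
        Nat.Coprime.mul_dvd_of_dvd_of_dvd (by norm_num : Nat.Coprime 4 13) h4c h13c
      have hcG : Nat.card (centralizer ({t} : Set G)) ∣ 5460 := by
        rw [← h]; exact Subgroup.card_subgroup_dvd_card _
      have hfc := Cfsg.Agent.Lib.Helper17.FixCount.card_mul_card_fixedBy
        (normalizer ((P : Subgroup G) : Set G)) t
      rw [hN52] at hfc
      have hk52 : {s : G | s ∈ normalizer ((P : Subgroup G) : Set G) ∧
          ∃ g : G, g * t * g⁻¹ = s}.ncard ≤ 52 := by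
        have hsub : {s : G | s ∈ normalizer ((P : Subgroup G) : Set G) ∧
            ∃ g : G, g * t * g⁻¹ = s} ⊆ ((normalizer ((P : Subgroup G) : Set G) : Subgroup G) : Set G) :=
          fun s hs => hs.1
        have e1 := Set.ncard_le_ncard hsub (Set.toFinite _)
        have e2 : (((normalizer ((P : Subgroup G) : Set G) : Subgroup G) : Set G)).ncard
            = Nat.card (normalizer ((P : Subgroup G) : Set G)) := by
          rw [← Nat.card_coe_set_eq]; rfl
        rw [e2, hN52] at e1
        exact e1
      obtain ⟨m, hm⟩ := h52c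
      rw [hm] at hfc hcG
      have hfmk : Nat.card (fixedBy (G ⧸ normalizer ((P : Subgroup G) : Set G)) t)
          = m * {s : G | s ∈ normalizer ((P : Subgroup G) : Set G) ∧
            ∃ g : G, g * t * g⁻¹ = s}.ncard := by
        apply Nat.eq_of_mul_eq_mul_left (by norm_num : 0 < 52)
        rw [hfc, mul_assoc]
      have hm105 : m ∣ 105 :=
        Nat.dvd_of_mul_dvd_mul_left (by norm_num : 0 < 52) (by simpa using hcG)
      have hf : Nat.card (fixedBy (G ⧸ normalizer ((P : Subgroup G) : Set G)) t) = 1 ∨
          Nat.card (fixedBy (G ⧸ normalizer ((P : Subgroup G) : Set G)) t) = 53 := by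
        omega
      rcases hf with hf | hf
      · -- one fixed point
        rw [hf] at hfmk
        have hm1 : m = 1 := Nat.eq_one_of_mul_eq_one_right hfmk.symm
        have hk1 : {s : G | s ∈ normalizer ((P : Subgroup G) : Set G) ∧
            ∃ g : G, g * t * g⁻¹ = s}.ncard = 1 := Nat.eq_one_of_mul_eq_one_left hfmk.symm
        have hc52 : Nat.card (centralizer ({t} : Set G)) = 52 := by rw [hm, hm1]
        have htN : t ∈ normalizer ((P : Subgroup G) : Set G) := hCN htC
        have hCtN : centralizer ({t} : Set G) ≤ normalizer ((P : Subgroup G) : Set G) := by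
          intro x hx
          have hsub : Subsingleton (fixedBy (G ⧸ normalizer ((P : Subgroup G) : Set G)) t) :=
            (Finite.card_le_one_iff_subsingleton).mp hf.le
          have hxt : t * x = x * t := (mem_centralizer_iff.mp hx) t rfl
          have m1 : ((1 : G) : G ⧸ normalizer ((P : Subgroup G) : Set G))
              ∈ fixedBy (G ⧸ normalizer ((P : Subgroup G) : Set G)) t := by
            show t • ((1 : G) : G ⧸ normalizer ((P : Subgroup G) : Set G)) = _
            rw [coset_fixed_iff]; simpa using htN
          have m2 : ((x : G) : G ⧸ normalizer ((P : Subgroup G) : Set G))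
              ∈ fixedBy (G ⧸ normalizer ((P : Subgroup G) : Set G)) t := by
            show t • ((x : G) : G ⧸ normalizer ((P : Subgroup G) : Set G)) = _
            rw [coset_fixed_iff]
            have : x⁻¹ * t * x = t := by rw [mul_assoc, hxt, ← mul_assoc, inv_mul_cancel, one_mul]
            rw [this]; exact htN
          have e : (⟨_, m1⟩ : fixedBy (G ⧸ normalizer ((P : Subgroup G) : Set G)) t)
              = ⟨_, m2⟩ := Subsingleton.elim _ _
          have e' := congrArg Subtype.val e
          have e'' := QuotientGroup.eq.mp e'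
          simpa using e''
        have h3N : 3 ∣ Nat.card (normalizer ((T : Subgroup G) : Set G)) := by
          have e := card_mul_relIndex (Subgroup.centralizer_le_normalizer ((T : Subgroup G) : Set G))
          rw [hrel] at e
          exact Dvd.intro_left _ e
        obtain ⟨n, hnN, hn3⟩ :=
          exists_mem_orderOf_eq_prime (normalizer ((T : Subgroup G) : Set G)) 3 h3N
        have hnC : n ∉ centralizer ({t} : Set G) := by
          intro hnC
          have := orderOf_dvd_card_of_mem hnC
          rw [hn3, hc52] at this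
          omega
        have hsT : n * t * n⁻¹ ∈ (T : Subgroup G) := (mem_normalizer_iff.mp hnN t).mp htT
        have hst : n * t * n⁻¹ ≠ t := by
          intro e
          apply hnC
          rw [mem_centralizer_iff]
          intro y hy
          rw [Set.mem_singleton_iff] at hy
          subst hy
          calc y * n = (n * y * n⁻¹) * n := by rw [e]
            _ = n * y := by group
        have hsN : n * t * n⁻¹ ∈ normalizer ((P : Subgroup G) : Set G) := hCtN (hTle hsT)
        obtain ⟨a, ha⟩ := Set.ncard_eq_one.mp hk1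
        have ht_mem : t ∈ {s : G | s ∈ normalizer ((P : Subgroup G) : Set G) ∧
            ∃ g : G, g * t * g⁻¹ = s} := ⟨htN, 1, by simp⟩
        have hs_mem : n * t * n⁻¹ ∈ {s : G | s ∈ normalizer ((P : Subgroup G) : Set G) ∧
            ∃ g : G, g * t * g⁻¹ = s} := ⟨hsN, n, rfl⟩
        rw [ha] at ht_mem hs_mem
        exact hst (hs_mem.trans ht_mem.symm)
      · -- 53 fixed points
        rw [hf] at hfmk
        have hm53 : m ∣ 53 := Dvd.intro _ hfmk.symm
        rcases (Nat.dvd_prime (by norm_num : Nat.Prime 53)).mp hm53 with rfl | rfl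
        · omega
        · omega
    · -- |C| = 13
      obtain ⟨K, hKN, hK4⟩ := exists_subgroup_le_card_pow_prime
        (normalizer ((P : Subgroup G) : Set G)) 2 2 (by rw [hN52]; norm_num)
      have hKp : IsPGroup 2 K := IsPGroup.of_card (n := 2) hK4
      obtain ⟨T, hKT⟩ := hKp.exists_le_sylow
      obtain ⟨a, haK, ha1, -⟩ := exists_ne_pair K (by rw [hK4]; norm_num) 1 1
      obtain ⟨b, hbK, hb1, hba⟩ := exists_ne_pair K (by rw [hK4]; norm_num) 1 a
      obtain ⟨g, hgP, hg⟩ := exists_mem_orderOf_eq_prime (P : Subgroup G) 13 (by rw [hP])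
      have hg1 : g ≠ 1 := by
        rintro rfl
        rw [orderOf_one] at hg
        omega
      obtain ⟨-, hz⟩ := zpowers_eq_of_mem P hP g hgP hg1
      have hnotC : ∀ x ∈ (T : Subgroup G), x ≠ 1 →
          x ∉ centralizer ((P : Subgroup G) : Set G) := by
        intro x hx hx1 hxC
        have e1 := orderOf_dvd_card_of_mem hxC
        rw [hC] at e1
        have e2 : orderOf x ∣ 2 := orderOf_dvd_of_pow_eq_one (by rw [pow_two]; exact hsq T x hx)
        have e3 : orderOf x ∣ Nat.gcd 13 2 := Nat.dvd_gcd e1 e2
        have e4 : orderOf x = 1 := Nat.dvd_one.mp (by simpa using e3)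
        exact hx1 (orderOf_eq_one_iff.mp e4)
      have hinv : ∀ x ∈ K, x ≠ 1 → x * g * x⁻¹ = g⁻¹ := by
        intro x hx hx1
        rcases invol_dichotomy P hP g hgP x (hKN hx) (hsq T x (hKT hx)) with h' | h'
        · exact absurd h' (hnotC x (hKT hx) hx1)
        · exact h'
      have ea := hinv a haK ha1
      have eb := hinv b hbK hb1
      have hab : (a * b) * g * (a * b)⁻¹ = g := by
        calc (a * b) * g * (a * b)⁻¹ = a * (b * g * b⁻¹) * a⁻¹ := by group
          _ = (a * g * a⁻¹)⁻¹ := by rw [eb]; group
          _ = g := by rw [ea, inv_inv]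
      have habC : a * b ∈ centralizer ((P : Subgroup G) : Set G) := by
        have hc : Commute (a * b) g := by
          show a * b * g = g * (a * b)
          calc a * b * g = ((a * b) * g * (a * b)⁻¹) * (a * b) := by group
            _ = g * (a * b) := by rw [hab]
        rw [mem_centralizer_iff]
        intro y hy
        rw [SetLike.mem_coe, ← hz] at hy
        obtain ⟨k, rfl⟩ := Subgroup.mem_zpowers_iff.mp hy
        exact ((hc.zpow_right k).eq).symm
      have hab1 : a * b = 1 := by
        by_contra hne1
        exact hnotC (a * b) (mul_mem (hKT haK) (hKT hbK)) hne1 habC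
      have hbb := hsq T b (hKT hbK)
      apply hba
      calc b = (a * b)⁻¹ * a * (b * b) := by group
        _ = a := by rw [hab1, hbb]; group

end Cfsg.Agent.Lib.Helper89.O5460
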