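import Mathlib
import Cfsg.Agent.Lib.Helper45.S9Stmt

set_option autoImplicit false

/-! S3590 piece AFFGLUE (second seat): block sum of affine isometries. -/

namespace Cfsg.Agent.Lib.Helper89.S9AFFGLUE

open Cfsg.Agent.Lib.Helper45.S9Stmt

universe u

variable {F : Type u} [Field F]

/-- the product of two submodules is linearly equivalent to the product of the submodules -/
noncomputable def prodSubEquiv {M N : Type*} [AddCommGroup M] [Module F M] [AddCommGroup N]
    [Module F N] (p : Submodule F M) (q : Submodule F N) : ↥(p.prod q) ≃ₗ[F] (↥p × ↥q) where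
  toFun x := (⟨x.1.1, x.2.1⟩, ⟨x.1.2, x.2.2⟩)
  invFun y := ⟨(y.1.1, y.2.1), ⟨y.1.2, y.2.2⟩⟩
  map_add' x y := rfl
  map_smul' c x := rfl
  left_inv x := rfl
  right_inv y := rfl

theorem finrank_prodSub {M N : Type*} [AddCommGroup M] [Module F M] [AddCommGroup N]
    [Module F N] [FiniteDimensional F M] [FiniteDimensional F N]
    (p : Submodule F M) (q : Submodule F N) :
    Module.finrank F ↥(p.prod q) = Module.finrank F ↥p + Module.finrank F ↥q := by
  rw [(prodSubEquiv p q).finrank_eq, Module.finrank_prod]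

theorem main : AFFGLUE.{u} := by
  intro F _ ι₁ ι₂ ι _ _ _ _ _ _ Q₁ Q₂ Q T hT N₁ N₂ ε₁ ε₂ h₁ h₂
  obtain ⟨X₁, w₁, hX₁, hD₁, hr₁⟩ := h₁
  obtain ⟨X₂, w₂, hX₂, hD₂, hr₂⟩ := h₂
  let φ : ((ι₁ → F) ≃ₗ[F] (ι₁ → F)) × ((ι₂ → F) ≃ₗ[F] (ι₂ → F)) →*
      ((ι → F) ≃ₗ[F] (ι → F)) :=
    { toFun := fun p => T.symm.trans ((p.1.prodCongr p.2).trans T)
      map_one' := by
        apply LinearEquiv.ext
        intro v
        simp
      map_mul' := by
        intro p q
        apply LinearEquiv.ext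
        intro v
        simp }
  have hφapp : ∀ (p : ((ι₁ → F) ≃ₗ[F] (ι₁ → F)) × ((ι₂ → F) ≃ₗ[F] (ι₂ → F))) (v : ι → F),
      φ p v = T (p.1 (T.symm v).1, p.2 (T.symm v).2) := fun p v => rfl
  have hφ : Function.Injective φ := by
    intro p q hpq
    have h : ∀ x : (ι₁ → F) × (ι₂ → F), (p.1 x.1, p.2 x.2) = (q.1 x.1, q.2 x.2) := by
      intro x
      have h1 := congrArg (fun Y : (ι → F) ≃ₗ[F] (ι → F) => Y (T x)) hpq
      simp only [hφapp, LinearEquiv.symm_apply_apply] at h1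
      exact T.injective h1
    apply Prod.ext
    · apply LinearEquiv.ext
      intro u
      exact (Prod.ext_iff.1 (h (u, 0))).1
    · apply LinearEquiv.ext
      intro w
      exact (Prod.ext_iff.1 (h (0, w))).2
  have hpow : ∀ j : ℕ, (φ (X₁, X₂)) ^ j = φ (X₁ ^ j, X₂ ^ j) := by
    intro j
    rw [← map_pow, Prod.pow_mk]
  have hone : ∀ j : ℕ, (φ (X₁, X₂)) ^ j = 1 ↔ (X₁ ^ j = 1 ∧ X₂ ^ j = 1) := by
    intro j
    rw [hpow, ← map_one φ, hφ.eq_iff, Prod.mk_eq_one]
  have hsum : ∀ j : ℕ, ∑ i ∈ Finset.range j, ((φ (X₁, X₂)) ^ i) (T (w₁, w₂)) =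
      T (∑ i ∈ Finset.range j, (X₁ ^ i) w₁, ∑ i ∈ Finset.range j, (X₂ ^ i) w₂) := by
    intro j
    have h1 : ∀ i : ℕ, ((φ (X₁, X₂)) ^ i) (T (w₁, w₂)) = T ((X₁ ^ i) w₁, (X₂ ^ i) w₂) := by
      intro i
      rw [hpow, hφapp, LinearEquiv.symm_apply_apply]
    simp only [h1]
    rw [← map_sum]
    congr 1
    apply Prod.ext
    · rw [Prod.fst_sum]
    · rw [Prod.snd_sum]
  refine ⟨φ (X₁, X₂), T (w₁, w₂), ?_, ?_, ?_⟩
  · intro v
    rw [hφapp, hT, hX₁, hX₂, ← hT]
    simp
  · intro j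
    rw [hone, hsum, Nat.lcm_dvd_iff, ← hD₁ j, ← hD₂ j]
    have hz : T (∑ i ∈ Finset.range j, (X₁ ^ i) w₁, ∑ i ∈ Finset.range j, (X₂ ^ i) w₂) = 0 ↔
        (∑ i ∈ Finset.range j, (X₁ ^ i) w₁ = 0 ∧ ∑ i ∈ Finset.range j, (X₂ ^ i) w₂ = 0) := by
      rw [LinearEquiv.map_eq_zero_iff, Prod.mk_eq_zero]
    rw [hz]
    tauto
  · -- ranks add
    have hmap : (φ (X₁, X₂)).toLinearMap - LinearMap.id =
        T.toLinearMap ∘ₗ ((X₁.toLinearMap - LinearMap.id).prodMap
          (X₂.toLinearMap - LinearMap.id)) ∘ₗ T.symm.toLinearMap := by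
      apply LinearMap.ext
      intro v
      simp only [LinearMap.sub_apply, LinearEquiv.coe_coe, LinearMap.id_coe, id_eq,
        LinearMap.coe_comp, Function.comp_apply, LinearMap.prodMap_apply, hφapp]
      have hv : v = T ((T.symm v).1, (T.symm v).2) := by simp
      conv_lhs => rhs; rw [hv]
      rw [← map_sub, Prod.mk_sub_mk]
    have hrange : LinearMap.range ((φ (X₁, X₂)).toLinearMap - LinearMap.id) =
        ((LinearMap.range (X₁.toLinearMap - LinearMap.id)).prod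
          (LinearMap.range (X₂.toLinearMap - LinearMap.id))).map T.toLinearMap := by
      rw [hmap, LinearMap.range_comp, LinearMap.range_comp, LinearEquiv.range,
        Submodule.map_top, LinearMap.range_prodMap]
    have hfin : Module.finrank F ↥(LinearMap.range ((φ (X₁, X₂)).toLinearMap - LinearMap.id)) =
        Module.finrank F ↥(LinearMap.range (X₁.toLinearMap - LinearMap.id)) +
          Module.finrank F ↥(LinearMap.range (X₂.toLinearMap - LinearMap.id)) := by
      rw [hrange]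
      have := LinearEquiv.finrank_map_eq T
        ((LinearMap.range (X₁.toLinearMap - LinearMap.id)).prod
          (LinearMap.range (X₂.toLinearMap - LinearMap.id)))
      rw [this, finrank_prodSub]
    rw [hfin, Nat.cast_add, hr₁, hr₂]

end Cfsg.Agent.Lib.Helper89.S9AFFGLUE
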